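import Cfsg.Agent.S3995
import Mathlib

/-!
Numbers of elements of each order: congruences when only two values occur for orders at least three.
-/

set_option autoImplicit false

namespace CfsgLib.OrderCounts

open Cfsg.Agent.S3995 (cnt totient_dvd_cnt dvd_sum_cnt sum_divisors_mul_coprime)

variable {G : Type*} [Group G] [Finite G]

theorem cnt_one : cnt G 1 = 1 := by
  haveI : Unique {g : G // orderOf g = 1} :=
    ⟨⟨⟨1, orderOf_one⟩⟩, fun g => Subtype.ext (orderOf_eq_one_iff.mp g.2)⟩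
  exact Nat.card_unique

theorem cnt_ne_zero_iff (d : ℕ) : cnt G d ≠ 0 ↔ ∃ x : G, orderOf x = d := by
  constructor
  · intro h
    by_contra hno
    push_neg at hno
    haveI : IsEmpty {g : G // orderOf g = d} := ⟨fun g => hno g g.2⟩
    exact h Nat.card_of_isEmpty
  · rintro ⟨x, hx⟩
    haveI : Nonempty {g : G // orderOf g = d} := ⟨⟨x, hx⟩⟩
    exact Nat.card_pos.ne'

theorem cnt_prime_ne_zero {p : ℕ} (hp : p.Prime) (hd : p ∣ Nat.card G) : cnt G p ≠ 0 := by
  haveI := Fact.mk hp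
  exact (cnt_ne_zero_iff p).mpr (exists_prime_orderOf_dvd_card' p hd)

/-- If `p` does not divide the number of elements of order `d` then every element of order `p`
commutes with one of order `d`. -/
theorem totient_mul_cnt_le {p d : ℕ} (hp : p.Prime) (hco : Nat.Coprime p d) (hnd : ¬ p ∣ cnt G d) :
    d.totient * cnt G p ≤ cnt G (p * d) := by
  classical
  haveI := Fact.mk hp
  have hfix : ∀ x : {g : G // orderOf g = p}, ∃ y : G, orderOf y = d ∧ Commute (x : G) y := by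
    intro x
    have hxp : IsPGroup p (Subgroup.zpowers (x : G)) :=
      IsPGroup.of_card (n := 1) (by rw [Nat.card_zpowers, x.2, pow_one])
    obtain ⟨P, hP⟩ := hxp.exists_le_sylow
    letI : MulAction (P : Subgroup G) {g : G // orderOf g = d} :=
      { smul := fun a g => ⟨(a : G) * g * (a : G)⁻¹, ((MulAut.conj (a : G)).orderOf_eq g.1).trans g.2⟩
        one_smul := fun g => Subtype.ext (show ((1 : (P : Subgroup G)) : G) * g * ((1 : (P : Subgroup G)) : G)⁻¹ = g by simp)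
        mul_smul := fun a b g => Subtype.ext (show ((a * b : (P : Subgroup G)) : G) * g * ((a * b : (P : Subgroup G)) : G)⁻¹ =
            (a : G) * ((b : G) * g * (b : G)⁻¹) * (a : G)⁻¹ by rw [Subgroup.coe_mul]; group) }
    obtain ⟨y, hy⟩ := IsPGroup.nonempty_fixed_point_of_prime_not_dvd_card P.isPGroup' {g : G // orderOf g = d} hnd
    refine ⟨y, y.2, ?_⟩
    have := congrArg Subtype.val (hy ⟨x, hP (Subgroup.mem_zpowers _)⟩)
    exact mul_inv_eq_iff_eq_mul.mp this
  choose y hy1 hy2 using hfix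
  let K := {k : Fin d // Nat.Coprime d k}
  have hK : Nat.card K = d.totient := by
    rw [Nat.totient_eq_card_coprime, Nat.card_eq_fintype_card, Fintype.card_subtype]
    refine Finset.card_bij (fun k _ => (k : ℕ)) (fun k hk => ?_) (fun a _ b _ h => Fin.ext h) (fun m hm => ?_)
    · simp only [Finset.mem_filter, Finset.mem_univ, true_and] at hk
      simp only [Finset.mem_filter, Finset.mem_range]
      exact ⟨k.2, hk⟩
    · simp only [Finset.mem_filter, Finset.mem_range] at hm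
      exact ⟨⟨m, hm.1⟩, by simpa using hm.2, rfl⟩
  let f : {g : G // orderOf g = p} × K → {g : G // orderOf g = p * d} := fun a =>
    ⟨(a.1 : G) * y a.1 ^ (a.2.1 : ℕ), by
      have ho : orderOf (y a.1 ^ (a.2.1 : ℕ)) = d := by
        rw [Nat.Coprime.orderOf_pow (by rw [hy1]; exact a.2.2), hy1]
      rw [((hy2 a.1).pow_right _).orderOf_mul_eq_mul_orderOf_of_coprime (by rw [ho, a.1.2]; exact hco), ho, a.1.2]⟩
  have hinj : Function.Injective f := by
    rintro ⟨x, k⟩ ⟨x', k'⟩ h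
    have h' : (x : G) * y x ^ (k.1 : ℕ) = (x' : G) * y x' ^ (k'.1 : ℕ) := congrArg Subtype.val h
    have hd1 : ∀ (z : {g : G // orderOf g = p}) (i : ℕ), ((z : G) * y z ^ i) ^ d = (z : G) ^ d := fun z i => by
      rw [((hy2 z).pow_right i).mul_pow, ← pow_mul, mul_comm i d, pow_mul, ← hy1 z, pow_orderOf_eq_one, one_pow, mul_one]
    have hxd : (x : G) ^ d = (x' : G) ^ d := by rw [← hd1 x k.1, h', hd1 x' k'.1]
    have hx : (x : G) = x' := by
      have hxp : (x : G) ^ p = 1 := by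
        have := pow_orderOf_eq_one (x : G); rwa [x.2] at this
      have hxp' : (x' : G) ^ p = 1 := by
        have := pow_orderOf_eq_one (x' : G); rwa [x'.2] at this
      obtain ⟨m, hm⟩ := Nat.exists_mul_mod_eq_one_of_coprime hco.symm hp.one_lt
      calc (x : G) = (x : G) ^ ((d * m) % p) := by rw [hm.2, pow_one]
        _ = ((x : G) ^ d) ^ m := by rw [← pow_mul, ← pow_eq_pow_mod _ hxp]
        _ = ((x' : G) ^ d) ^ m := by rw [hxd]
        _ = (x' : G) := by rw [← pow_mul, pow_eq_pow_mod _ hxp', hm.2, pow_one]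
    obtain rfl : x = x' := Subtype.ext hx
    have hk := pow_inj_mod.mp (mul_left_cancel h')
    rw [hy1, Nat.mod_eq_of_lt k.1.2, Nat.mod_eq_of_lt k'.1.2] at hk
    exact Prod.ext rfl (Subtype.ext (Fin.ext hk))
  have h := Nat.card_le_card_of_injective f hinj
  rw [Nat.card_prod, hK, mul_comm] at h
  exact h

theorem cast_sum_eq_zero {p N : ℕ} (hN : N ≠ 0) (hdvd : N ∣ Nat.card G) (hp : p ∣ N) :
    ((∑ d ∈ N.divisors, cnt G d : ℕ) : ZMod p) = 0 :=
  (ZMod.natCast_eq_zero_iff _ p).mpr (hp.trans (dvd_sum_cnt hN hdvd))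

theorem two_ne_zero_zmod {p : ℕ} (hp : p.Prime) (h2 : p ≠ 2) : (2 : ZMod p) ≠ 0 := by
  intro h
  have h' : ((2 : ℕ) : ZMod p) = 0 := by exact_mod_cast h
  exact h2 ((Nat.prime_dvd_prime_iff_eq hp Nat.prime_two).mp ((ZMod.natCast_eq_zero_iff _ p).mp h'))

theorem cast_prime {p : ℕ} (hp : p.Prime) (hd : p ∣ Nat.card G) : (cnt G p : ZMod p) = -1 := by
  have h := cast_sum_eq_zero (G := G) hp.ne_zero hd dvd_rfl
  rw [hp.sum_divisors, cnt_one, Nat.cast_add, Nat.cast_one] at h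
  linear_combination h

theorem not_dvd_cnt_prime {p : ℕ} (hp : p.Prime) (hd : p ∣ Nat.card G) : ¬ p ∣ cnt G p := by
  intro h
  haveI := Fact.mk hp
  have := cast_prime (G := G) hp hd
  rw [(ZMod.natCast_eq_zero_iff _ p).mpr h] at this
  exact one_ne_zero (neg_eq_zero.mp this.symm)

/-- At most two values on the orders `≥ 3`. -/
def TwoValues (G : Type*) [Group G] (a b : ℕ) : Prop :=
  ∀ m, 3 ≤ m → cnt G m ≠ 0 → cnt G m = a ∨ cnt G m = b

theorem TwoValues.eq_of_ne {a b : ℕ} (h : TwoValues G a b) {m n k : ℕ} (hm : 3 ≤ m) (hn : 3 ≤ n) (hk : 3 ≤ k)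
    (hm0 : cnt G m ≠ 0) (hn0 : cnt G n ≠ 0) (hk0 : cnt G k ≠ 0) (hne : cnt G k ≠ cnt G m) :
    cnt G n = cnt G m ∨ cnt G n = cnt G k := by
  rcases h m hm hm0 with h1 | h1 <;> rcases h n hn hn0 with h2 | h2 <;> rcases h k hk hk0 with h3 | h3 <;>
    simp_all

theorem TwoValues.eq_of_ne_ne {a b : ℕ} (h : TwoValues G a b) {m n k : ℕ} (hm : 3 ≤ m) (hn : 3 ≤ n) (hk : 3 ≤ k)
    (hm0 : cnt G m ≠ 0) (hn0 : cnt G n ≠ 0) (hk0 : cnt G k ≠ 0) (h1 : cnt G n ≠ cnt G m) (h2 : cnt G k ≠ cnt G m) :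
    cnt G n = cnt G k :=
  (h.eq_of_ne hm hn hk hm0 hn0 hk0 h2).resolve_left h1

theorem cast_pair {p q : ℕ} (hp : p.Prime) (hq : q.Prime) (hne : p ≠ q) (hpd : p ∣ Nat.card G) (hqd : q ∣ Nat.card G) :
    (cnt G q : ZMod p) + cnt G (p * q) = 0 := by
  have hco := (Nat.coprime_primes hp hq).mpr hne
  have h := cast_sum_eq_zero (G := G) (Nat.mul_ne_zero hp.ne_zero hq.ne_zero) (hco.mul_dvd_of_dvd_of_dvd hpd hqd)
    (dvd_mul_right p q)
  rw [sum_divisors_mul_coprime hco] at h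
  simp only [hp.sum_divisors, hq.sum_divisors, one_mul, mul_one, cnt_one, Nat.cast_add, Nat.cast_one,
    cast_prime hp hpd] at h
  linear_combination h

section pairs

variable {a b : ℕ} (hT : TwoValues G a b) {p q : ℕ} (hp : p.Prime) (hq : q.Prime) (hp2 : p ≠ 2) (hq2 : q ≠ 2)
  (hne : p ≠ q) (hpd : p ∣ Nat.card G) (hqd : q ∣ Nat.card G)

include hp hq hp2 hq2 hne hpd hqd

theorem pair_three_le : 3 ≤ p ∧ 3 ≤ q ∧ 3 ≤ p * q ∧ 2 ≤ q.totient ∧ 2 ≤ p.totient ∧ Nat.Coprime p q := by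
  have h3 : 3 ≤ p := by have := hp.two_le; omega
  have h4 : 3 ≤ q := by have := hq.two_le; omega
  exact ⟨h3, h4, by nlinarith, by rw [Nat.totient_prime hq]; omega, by rw [Nat.totient_prime hp]; omega,
    (Nat.coprime_primes hp hq).mpr hne⟩

/-- Two primes with equal counts. -/
theorem same_pair (hpq : cnt G p = cnt G q) :
    cnt G (p * q) ≠ 0 ∧ cnt G (p * q) ≠ cnt G p ∧ (cnt G (p * q) : ZMod p) = 1 := by
  obtain ⟨h3, h4, h5, h6, -, hco⟩ := pair_three_le hp hq hp2 hq2 hne hpd hqd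
  have hnd : ¬ p ∣ cnt G q := hpq ▸ not_dvd_cnt_prime hp hpd
  have hle := totient_mul_cnt_le hp hco hnd
  have hpos := Nat.pos_of_ne_zero (cnt_prime_ne_zero hp hpd)
  refine ⟨by nlinarith, by nlinarith, ?_⟩
  have := cast_pair hp hq hne hpd hqd
  rw [← hpq, cast_prime hp hpd] at this
  linear_combination this

include hT

/-- Two primes with different counts: no element of order `p * q`. -/
theorem cross_pair (hpq : cnt G p ≠ cnt G q) : cnt G (p * q) = 0 ∧ p ∣ cnt G q ∧ q ∣ cnt G p := by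
  obtain ⟨h3, h4, h5, h6, h7, hco⟩ := pair_three_le hp hq hp2 hq2 hne hpd hqd
  haveI := Fact.mk hp
  haveI := Fact.mk hq
  have hp0 := cnt_prime_ne_zero hp hpd
  have hq0 := cnt_prime_ne_zero hq hqd
  have e1 := cast_pair hp hq hne hpd hqd
  have e2 := cast_pair hq hp hne.symm hqd hpd
  rw [mul_comm q p] at e2
  have h1 : p ∣ cnt G q := by
    by_contra hnd
    have hle := totient_mul_cnt_le hp hco hnd
    have hpos := Nat.pos_of_ne_zero hp0
    have hne' : cnt G (p * q) ≠ cnt G p := by nlinarith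
    have heq := hT.eq_of_ne_ne h3 h5 h4 hp0 (by nlinarith) hq0 hne' (Ne.symm hpq)
    rw [heq] at e1
    have : (2 : ZMod p) * cnt G q = 0 := by linear_combination e1
    rcases mul_eq_zero.mp this with h | h
    · exact two_ne_zero_zmod hp hp2 h
    · exact hnd ((ZMod.natCast_eq_zero_iff _ p).mp h)
  have h2 : q ∣ cnt G p := by
    by_contra hnd
    have hle := totient_mul_cnt_le hq hco.symm hnd
    rw [mul_comm q p] at hle
    have hpos := Nat.pos_of_ne_zero hq0
    have hne' : cnt G (p * q) ≠ cnt G q := by nlinarith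
    have heq := hT.eq_of_ne_ne h4 h5 h3 hq0 (by nlinarith) hp0 hne' hpq
    rw [heq] at e2
    have : (2 : ZMod q) * cnt G p = 0 := by linear_combination e2
    rcases mul_eq_zero.mp this with h | h
    · exact two_ne_zero_zmod hq hq2 h
    · exact hnd ((ZMod.natCast_eq_zero_iff _ q).mp h)
  refine ⟨?_, h1, h2⟩
  by_contra h0
  rw [(ZMod.natCast_eq_zero_iff _ p).mpr h1, zero_add] at e1
  rw [(ZMod.natCast_eq_zero_iff _ q).mpr h2, zero_add] at e2
  rcases hT.eq_of_ne h3 h5 h4 hp0 h0 hq0 (Ne.symm hpq) with h | h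
  · rw [h] at e1; exact not_dvd_cnt_prime hp hpd ((ZMod.natCast_eq_zero_iff _ p).mp e1)
  · rw [h] at e2; exact not_dvd_cnt_prime hq hqd ((ZMod.natCast_eq_zero_iff _ q).mp e2)

end pairs

/-- There are at most two odd prime divisors. -/
theorem odd_primes_le_two {a b : ℕ} (hT : TwoValues G a b) {p q r : ℕ} (hp : p.Prime) (hq : q.Prime) (hr : r.Prime)
    (hp2 : p ≠ 2) (hq2 : q ≠ 2) (hr2 : r ≠ 2) (hpd : p ∣ Nat.card G) (hqd : q ∣ Nat.card G) (hrd : r ∣ Nat.card G) :
    p = q ∨ p = r ∨ q = r := by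
  by_contra hne
  push_neg at hne
  obtain ⟨hpq, hpr, hqr⟩ := hne
  haveI := Fact.mk hp
  -- a prime of one class against a pair of the same class
  have mixed : ∀ {x y z : ℕ}, x.Prime → y.Prime → z.Prime → x ≠ 2 → y ≠ 2 → z ≠ 2 → x ≠ y → x ≠ z → y ≠ z →
      x ∣ Nat.card G → y ∣ Nat.card G → z ∣ Nat.card G → cnt G x = cnt G y → cnt G x ≠ cnt G z → False := by
    intro x y z hx hy hz hx2 hy2 hz2 hxy hxz hyz hxd hyd hzd hsame hcross
    haveI := Fact.mk hx
    obtain ⟨h0, h1, h1'⟩ := same_pair hx hy hx2 hy2 hxy hxd hyd hsame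
    obtain ⟨-, h2, -⟩ := cross_pair hT hx hz hx2 hz2 hxz hxd hzd hcross
    obtain ⟨h3, -, h5, -⟩ := pair_three_le hx hy hx2 hy2 hxy hxd hyd
    rw [hT.eq_of_ne_ne h3 h5 (show 3 ≤ z by have := hz.two_le; omega) (cnt_prime_ne_zero hx hxd) h0
      (cnt_prime_ne_zero hz hzd) h1 (Ne.symm hcross), (ZMod.natCast_eq_zero_iff _ x).mpr h2] at h1'
    exact zero_ne_one h1'
  have hp0 := cnt_prime_ne_zero hp hpd
  have hq0 := cnt_prime_ne_zero hq hqd
  have hr0 := cnt_prime_ne_zero hr hrd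
  have h3 : 3 ≤ p := by have := hp.two_le; omega
  have h4 : 3 ≤ q := by have := hq.two_le; omega
  have h5 : 3 ≤ r := by have := hr.two_le; omega
  by_cases e1 : cnt G p = cnt G q
  swap
  · rcases hT.eq_of_ne h3 h5 h4 hp0 hr0 hq0 (Ne.symm e1) with h | h
    · exact mixed hp hr hq hp2 hr2 hq2 hpr hpq hqr.symm hpd hrd hqd h.symm e1
    · exact mixed hq hr hp hq2 hr2 hp2 hqr hpq.symm hpr.symm hqd hrd hpd h.symm (Ne.symm e1)
  by_cases e2 : cnt G p = cnt G r
  swap
  · exact mixed hp hq hr hp2 hq2 hr2 hpq hpr hqr hpd hqd hrd e1 e2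
  obtain ⟨a0, a1, a1'⟩ := same_pair hp hq hp2 hq2 hpq hpd hqd e1
  obtain ⟨b0, b1, b1'⟩ := same_pair hp hr hp2 hr2 hpr hpd hrd e2
  obtain ⟨c0, c1, -⟩ := same_pair hq hr hq2 hr2 hqr hqd hrd (e1.symm.trans e2)
  rw [← e1] at c1
  have hqr' : cnt G (q * r) = cnt G (p * q) :=
    hT.eq_of_ne_ne h3 (by nlinarith) (by nlinarith) hp0 c0 a0 c1 a1
  have hco : Nat.Coprime p (q * r) :=
    Nat.Coprime.mul_right ((Nat.coprime_primes hp hq).mpr hpq) ((Nat.coprime_primes hp hr).mpr hpr)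
  have hnd : ¬ p ∣ cnt G (q * r) := by
    rw [hqr', ← ZMod.natCast_eq_zero_iff, a1']; exact one_ne_zero
  have hle := totient_mul_cnt_le hp hco hnd
  rw [Nat.totient_mul ((Nat.coprime_primes hq hr).mpr hqr), Nat.totient_prime hq, Nat.totient_prime hr] at hle
  have h22 : 4 ≤ (q - 1) * (r - 1) := Nat.mul_le_mul (by omega : 2 ≤ q - 1) (by omega : 2 ≤ r - 1)
  have hpos := Nat.pos_of_ne_zero hp0
  have hne' : cnt G (p * (q * r)) ≠ cnt G p := by nlinarith
  have h9 : 9 ≤ q * r := Nat.mul_le_mul h4 h5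
  have heq := hT.eq_of_ne_ne h3 (by nlinarith) (by nlinarith) hp0 (by nlinarith) a0 hne' a1
  have hqrd : q * r ∣ Nat.card G := ((Nat.coprime_primes hq hr).mpr hqr).mul_dvd_of_dvd_of_dvd hqd hrd
  have h := cast_sum_eq_zero (G := G) (Nat.mul_ne_zero hp.ne_zero (Nat.mul_ne_zero hq.ne_zero hr.ne_zero))
    (hco.mul_dvd_of_dvd_of_dvd hpd hqrd) (dvd_mul_right p _)
  rw [sum_divisors_mul_coprime hco] at h
  simp only [hp.sum_divisors, sum_divisors_mul_coprime ((Nat.coprime_primes hq hr).mpr hqr), hq.sum_divisors,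
    hr.sum_divisors, one_mul, mul_one, cnt_one, Nat.cast_add, Nat.cast_one] at h
  rw [hqr', heq, b1', a1', ← e1, ← e2, cast_prime hp hpd] at h
  exact two_ne_zero_zmod hp hp2 (by linear_combination h)

end CfsgLib.OrderCounts
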